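import Cfsg.Agent.H749.TwoCmp
import Cfsg.Agent.H477.HC.RowO
import Cfsg.Agent.H674.Dl.OrthDeg

/-!
# The index of the parabolic at a linear prime (helper674)

`p` odd, `f` the order of `q` modulo `p`, `f` odd, `f ≤ m`, `p ∤ m / f` : the number of totally singular `f`-spaces of
the symplectic, odd orthogonal, plus and minus forms of Witt index `m` over a field of `q` elements is prime to `p`:
`sp_Om_ndvd`, `odd_Om_ndvd`, `plus_Om_ndvd`, `minus_Om_ndvd`.
-/

set_option autoImplicit false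

open scoped ComplexConjugate
open Cfsg

namespace Cfsg.Agent.H674.HT

open Module Cfsg.Agent.H53.HC Cfsg.Agent.H477.HC

universe u v w

section arith

variable {p q f : ℕ} [hp : Fact p.Prime]

/-- `p ∣ q ^ i - 1` iff `f ∣ i` -/
theorem dvd_pow_sub_one_iff (hq : 1 ≤ q) (hf : orderOf ((q : ℕ) : ZMod p) = f) (i : ℕ) : p ∣ q ^ i - 1 ↔ f ∣ i := by
  rw [← hf, orderOf_dvd_iff_pow_eq_one, ← ZMod.natCast_eq_zero_iff, Nat.cast_sub (Nat.one_le_pow _ _ hq), Nat.cast_pow,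
    Nat.cast_one, sub_eq_zero]

/-- `p ∤ q ^ i + 1` if the order is odd -/
theorem not_dvd_pow_add_one (hp2 : p ≠ 2) (hf : orderOf ((q : ℕ) : ZMod p) = f) (ho : Odd f) (i : ℕ) :
    ¬ p ∣ q ^ i + 1 := by
  intro h
  rw [← ZMod.natCast_eq_zero_iff] at h
  push_cast at h
  have h1 : ((q : ℕ) : ZMod p) ^ i = -1 := eq_neg_of_add_eq_zero_left h
  have h2 : ((q : ℕ) : ZMod p) ^ (2 * i) = 1 := by
    rw [mul_comm, pow_mul, h1]; norm_num
  have h3 : f ∣ 2 * i := by rw [← hf]; exact orderOf_dvd_of_pow_eq_one h2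
  have h4 : f ∣ i := (Nat.Coprime.dvd_of_dvd_mul_left (ho.coprime_two_right) h3)
  have h5 : ((q : ℕ) : ZMod p) ^ i = 1 := by rw [← orderOf_dvd_iff_pow_eq_one, hf]; exact h4
  rw [h5] at h1
  have h6 : ((2 : ℕ) : ZMod p) = 0 := by
    push_cast
    linear_combination h1
  rw [ZMod.natCast_eq_zero_iff] at h6
  exact hp2 ((Nat.prime_dvd_prime_iff_eq hp.out Nat.prime_two).1 h6)

theorem val_two_mul (hq : 2 ≤ q) (hp2 : p ≠ 2) (hf : orderOf ((q : ℕ) : ZMod p) = f) (ho : Odd f) {i : ℕ} (hi : 0 < i) :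
    padicValNat p (q ^ (2 * i) - 1) = padicValNat p (q ^ i - 1) := by
  have h1 : 1 < q ^ i := Nat.one_lt_pow hi.ne' (by omega)
  have h2 : q ^ (2 * i) - 1 = (q ^ i - 1) * (q ^ i + 1) := by
    obtain ⟨x, hx⟩ : ∃ x, q ^ i = x + 1 := ⟨q ^ i - 1, by omega⟩
    rw [mul_comm 2, pow_mul, hx]
    have : (x + 1) ^ 2 = x * (x + 1 + 1) + 1 := by ring
    rw [this, Nat.add_sub_cancel, Nat.add_sub_cancel]
  rw [h2, padicValNat.mul (by omega) (by omega),
    padicValNat.eq_zero_of_not_dvd (not_dvd_pow_add_one hp2 hf ho i), add_zero]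

/-- the lifting of the exponent -/
theorem val_mul (hq : 2 ≤ q) (hp2 : p ≠ 2) (hf : orderOf ((q : ℕ) : ZMod p) = f) (h0 : 0 < f) {w : ℕ} (hw : ¬ p ∣ w) :
    padicValNat p (q ^ (w * f) - 1) = padicValNat p (q ^ f - 1) := by
  have hpo : Odd p := hp.out.odd_of_ne_two hp2
  have h1 : 1 < q ^ f := Nat.one_lt_pow h0.ne' (by omega)
  have h2 : p ∣ q ^ f - 1 := (dvd_pow_sub_one_iff (by omega) hf f).2 dvd_rfl
  have h3 : ¬ p ∣ q ^ f := by
    intro h
    have := (Nat.dvd_sub h h2)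
    rw [Nat.sub_sub_self h1.le] at this
    exact hp.out.one_lt.ne' (Nat.dvd_one.1 this)
  have hw0 : w ≠ 0 := by rintro rfl; exact hw (dvd_zero _)
  have h4 := padicValNat.pow_sub_pow (p := p) (x := q ^ f) (y := 1) hpo h1 (by simpa using h2) h3 (n := w) hw0
  rw [one_pow, padicValNat.eq_zero_of_not_dvd hw, add_zero, ← pow_mul, mul_comm f w] at h4
  exact h4

/-- the valuation of the product of the `q ^ i - 1` -/
noncomputable def S (p q m : ℕ) : ℕ := ∑ i ∈ Finset.range m, padicValNat p (q ^ (i + 1) - 1)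

theorem S_add (hq : 2 ≤ q) (hf : orderOf ((q : ℕ) : ZMod p) = f) (hp2 : p ≠ 2) (h0 : 0 < f) {n : ℕ}
    (hw : ¬ p ∣ (f + n) / f) : S p q (f + n) = S p q n + padicValNat p (q ^ f - 1) := by
  unfold S
  rw [add_comm f n, Finset.sum_range_add]
  congr 1
  obtain ⟨w, hwd⟩ : ∃ w, w = (f + n) / f := ⟨_, rfl⟩
  rw [← hwd] at hw
  have hw0 : w ≠ 0 := by intro h; rw [h] at hw; exact hw (dvd_zero _)
  have h1 : w * f ≤ f + n := by rw [hwd]; exact Nat.div_mul_le_self _ _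
  have h2 : f + n < w * f + f := by
    have h3 := Nat.div_add_mod (f + n) f
    have h4 := Nat.mod_lt (f + n) h0
    rw [← hwd, mul_comm f w] at h3
    omega
  have hlt : w * f - n - 1 < f := by omega
  rw [Finset.sum_eq_single_of_mem (w * f - n - 1) (Finset.mem_range.2 hlt)]
  · rw [← val_mul hq hp2 hf h0 hw]
    congr 3
    omega
  · intro b hb hne
    refine padicValNat.eq_zero_of_not_dvd ?_
    rw [dvd_pow_sub_one_iff (by omega) hf]
    rintro ⟨c, hc⟩
    rw [Finset.mem_range] at hb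
    apply hne
    have h5 : c = w := by
      have h6 : f * c < f * (w + 1) := by
        rw [mul_add, mul_comm f w, mul_one]
        omega
      have h7 : f * (w - 1) < f * c := by
        obtain ⟨w', rfl⟩ : ∃ w', w = w' + 1 := ⟨w - 1, by omega⟩
        rw [← hc]
        rw [Nat.add_sub_cancel]
        have : (w' + 1) * f = f * w' + f := by ring
        omega
      have h8 := Nat.lt_of_mul_lt_mul_left h6
      have h9 := Nat.lt_of_mul_lt_mul_left h7
      omega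
    rw [h5, mul_comm f w] at hc
    omega

/-- valuation of the product of the `q ^ (2 (i + 1)) - 1` -/
theorem val_prod (hq : 2 ≤ q) (hp2 : p ≠ 2) (hf : orderOf ((q : ℕ) : ZMod p) = f) (ho : Odd f) (m : ℕ) :
    padicValNat p (∏ i ∈ Finset.range m, (q ^ (2 * (i + 1)) - 1)) = S p q m := by
  induction m with
  | zero => simp [S]
  | succ m ih =>
    have h0 : ∀ i, 0 < q ^ (2 * (i + 1)) - 1 := fun i => by
      have : 1 < q ^ (2 * (i + 1)) := Nat.one_lt_pow (by omega) (by omega)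
      omega
    rw [Finset.prod_range_succ, padicValNat.mul (Finset.prod_ne_zero_iff.2 fun i _ => (h0 i).ne') (h0 m).ne', ih,
      val_two_mul hq hp2 hf ho (by omega)]
    unfold S
    rw [Finset.sum_range_succ]

theorem val_pow_q (hpq : ¬ p ∣ q) (s : ℕ) : padicValNat p (q ^ s) = 0 :=
  padicValNat.eq_zero_of_not_dvd fun h => hpq (hp.out.dvd_of_dvd_pow h)

theorem val_two (hp2 : p ≠ 2) : padicValNat p 2 = 0 :=
  padicValNat.eq_zero_of_not_dvd fun h => hp2 ((Nat.prime_dvd_prime_iff_eq hp.out Nat.prime_two).1 h)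

end arith

section orders

variable (K : Type u) [Field K] [Finite K] {p f : ℕ} [hp : Fact p.Prime]

theorem two_le_card : 2 ≤ Nat.card K := by
  have := Finite.one_lt_card (α := K)
  omega

theorem not_dvd_card {r : ℕ} [Fact r.Prime] [CharP K r] (hpr : p ≠ r) : ¬ p ∣ Nat.card K := by
  obtain ⟨s, hs⟩ := card_pow K r
  rw [hs]
  intro h
  exact hpr ((Nat.prime_dvd_prime_iff_eq hp.out (Fact.out : r.Prime)).1 (hp.out.dvd_of_dvd_pow h))

omit [Field K] [Finite K] in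
theorem f_pos (hpq : ¬ p ∣ Nat.card K) (hf : orderOf ((Nat.card K : ℕ) : ZMod p) = f) : 0 < f := by
  rw [← hf]
  have h1 : ((Nat.card K : ℕ) : ZMod p) ≠ 0 := by rwa [Ne, ZMod.natCast_eq_zero_iff]
  rw [orderOf_pos_iff, isOfFinOrder_iff_pow_eq_one]
  exact ⟨p - 1, by have := hp.out.two_le; omega, ZMod.pow_card_sub_one_eq_one h1⟩

variable {K}

theorem prod_ne (m : ℕ) : ∏ i ∈ Finset.range m, (Nat.card K ^ (2 * (i + 1)) - 1) ≠ 0 := by
  refine Finset.prod_ne_zero_iff.2 fun i _ => ?_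
  have h2 := two_le_card K
  have : 1 < Nat.card K ^ (2 * (i + 1)) := Nat.one_lt_pow (by omega) (by omega)
  omega

variable (K)

/-- valuation of `|Sp|` -/
theorem val_spF (hp2 : p ≠ 2) (hpq : ¬ p ∣ Nat.card K) (hf : orderOf ((Nat.card K : ℕ) : ZMod p) = f) (ho : Odd f)
    (m : ℕ) : padicValNat p (Nat.card (CForm.spF K m).iso) = S p (Nat.card K) m := by
  have h2 := two_le_card K
  rw [card_spF, padicValNat.mul (pow_ne_zero _ (by omega)) (prod_ne m), val_pow_q hpq, zero_add,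
    val_prod h2 hp2 hf ho]

/-- valuation of `|O|` in odd dimension -/
theorem val_oddF (hp2 : p ≠ 2) (hpq : ¬ p ∣ Nat.card K) (hf : orderOf ((Nat.card K : ℕ) : ZMod p) = f) (ho : Odd f)
    (hK : (2 : K) ≠ 0) (hKo : Odd (Nat.card K)) (m : ℕ) :
    padicValNat p (Nat.card (CForm.oddF K m hK).iso) = S p (Nat.card K) m := by
  have h2 := two_le_card K
  rw [card_oddF K hK hKo, padicValNat.mul (mul_ne_zero two_ne_zero (pow_ne_zero _ (by omega))) (prod_ne m),
    padicValNat.mul two_ne_zero (pow_ne_zero _ (by omega)), val_two hp2, val_pow_q hpq, zero_add, zero_add,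
    val_prod h2 hp2 hf ho]

/-- valuation of `|O⁺|` -/
theorem val_plusF (hp2 : p ≠ 2) (hpq : ¬ p ∣ Nat.card K) (hf : orderOf ((Nat.card K : ℕ) : ZMod p) = f) (ho : Odd f)
    (m : ℕ) : padicValNat p (Nat.card (CForm.plusF K m).iso) = S p (Nat.card K) m := by
  have h2 := two_le_card K
  rcases Nat.eq_zero_or_pos m with rfl | hm
  · rw [Cfsg.Agent.H674.Dl.card_plusF_zero]
    simp [S]
  · obtain ⟨n, rfl⟩ : ∃ n, m = n + 1 := ⟨m - 1, by omega⟩
    have h3 : 1 < Nat.card K ^ (n + 1) := Nat.one_lt_pow (by omega) (by omega)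
    rw [card_plusF K hm, Nat.add_sub_cancel,
      padicValNat.mul (mul_ne_zero (mul_ne_zero two_ne_zero (pow_ne_zero _ (by omega))) (by omega)) (prod_ne n),
      padicValNat.mul (mul_ne_zero two_ne_zero (pow_ne_zero _ (by omega))) (by omega),
      padicValNat.mul two_ne_zero (pow_ne_zero _ (by omega)), val_two hp2, val_pow_q hpq, zero_add, zero_add,
      val_prod h2 hp2 hf ho]
    unfold S
    rw [Finset.sum_range_succ, add_comm]

/-- valuation of `|O⁻|` -/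
theorem val_minusF (hp2 : p ≠ 2) (hpq : ¬ p ∣ Nat.card K) (hf : orderOf ((Nat.card K : ℕ) : ZMod p) = f) (ho : Odd f)
    (m : ℕ) (a b : K) (hab : ∀ z₁ z₂ : K, z₁ ^ 2 + a * z₁ * z₂ + b * z₂ ^ 2 = 0 → z₁ = 0 ∧ z₂ = 0) :
    padicValNat p (Nat.card (CForm.minusF K m a b hab).iso) = S p (Nat.card K) m := by
  have h2 := two_le_card K
  rw [card_minusF K m a b hab,
    padicValNat.mul (mul_ne_zero (mul_ne_zero two_ne_zero (pow_ne_zero _ (by omega))) (by omega)) (prod_ne m),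
    padicValNat.mul (mul_ne_zero two_ne_zero (pow_ne_zero _ (by omega))) (by omega),
    padicValNat.mul two_ne_zero (pow_ne_zero _ (by omega)), val_two hp2, val_pow_q hpq, zero_add, zero_add,
    padicValNat.eq_zero_of_not_dvd (not_dvd_pow_add_one hp2 hf ho (m + 1)), zero_add, val_prod h2 hp2 hf ho]

/-- valuation of `|GL_f|` -/
theorem val_GL (hpq : ¬ p ∣ Nat.card K) (hf : orderOf ((Nat.card K : ℕ) : ZMod p) = f) :
    padicValNat p (Nat.card (GL (Fin f) K)) = padicValNat p (Nat.card K ^ f - 1) := by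
  have h0 := f_pos K hpq hf
  have h2 := two_le_card K
  obtain ⟨s, hs⟩ := card_GL_eq K f h0
  have h3 : 1 < Nat.card K ^ f := Nat.one_lt_pow (by omega) (by omega)
  have h4 : ∀ i ∈ Finset.Ico 1 f, ¬ p ∣ Nat.card K ^ i - 1 := by
    intro i hi h
    rw [Finset.mem_Ico] at hi
    have := Nat.le_of_dvd (by omega) ((dvd_pow_sub_one_iff (by omega) hf i).1 h)
    omega
  have h5 : ¬ p ∣ ∏ i ∈ Finset.Ico 1 f, (Nat.card K ^ i - 1) := by
    intro h
    obtain ⟨i, hi, h⟩ := (hp.out.prime.dvd_finsetProd_iff _).1 h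
    exact h4 i hi h
  have h6 : ∏ i ∈ Finset.Ico 1 f, (Nat.card K ^ i - 1) ≠ 0 := fun h => h5 (h ▸ dvd_zero p)
  rw [hs, padicValNat.mul (pow_ne_zero _ (by omega)) (mul_ne_zero h6 (by omega)), padicValNat.mul h6 (by omega),
    val_pow_q hpq, padicValNat.eq_zero_of_not_dvd h5, zero_add, zero_add]

variable {K}

/-- **the index, from the orders** -/
theorem Om_ndvd_of {r : ℕ} [Fact r.Prime] [CharP K r] (hp2 : p ≠ 2) (hpr : p ≠ r)
    (hf : orderOf ((Nat.card K : ℕ) : ZMod p) = f) {n O A B : ℕ} (hw : ¬ p ∣ (f + n) / f)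
    (hA : padicValNat p A = S p (Nat.card K) (f + n)) (hB : padicValNat p B = S p (Nat.card K) n) (hA0 : A ≠ 0)
    (h : ∃ a, A = r ^ a * (O * Nat.card (GL (Fin f) K) * B)) : ¬ p ∣ O := by
  obtain ⟨a, h⟩ := h
  have hpq := not_dvd_card (p := p) K hpr
  have hr0 : r ^ a ≠ 0 := pow_ne_zero _ (Fact.out : r.Prime).ne_zero
  have hr : padicValNat p (r ^ a) = 0 := padicValNat.eq_zero_of_not_dvd fun h =>
    hpr ((Nat.prime_dvd_prime_iff_eq hp.out (Fact.out : r.Prime)).1 (hp.out.dvd_of_dvd_pow h))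
  have h1 : O * Nat.card (GL (Fin f) K) * B ≠ 0 := by
    intro h'
    rw [h', mul_zero] at h
    exact hA0 h
  have hB0 : B ≠ 0 := right_ne_zero_of_mul h1
  have h2 : O * Nat.card (GL (Fin f) K) ≠ 0 := left_ne_zero_of_mul h1
  have hO0 : O ≠ 0 := left_ne_zero_of_mul h2
  have hG0 : Nat.card (GL (Fin f) K) ≠ 0 := right_ne_zero_of_mul h2
  rw [h, padicValNat.mul hr0 h1, hr, zero_add, padicValNat.mul h2 hB0, padicValNat.mul hO0 hG0, val_GL K hpq hf, hB,
    S_add (two_le_card K) hf hp2 (f_pos K hpq hf) hw] at hA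
  have hO : padicValNat p O = 0 := by omega
  intro hd
  have := one_le_padicValNat_of_dvd hO0 hd
  omega

variable (K)

/-- **the index for `Sp`** -/
theorem sp_Om_ndvd {r : ℕ} [Fact r.Prime] [CharP K r] (hp2 : p ≠ 2) (hpr : p ≠ r)
    (hf : orderOf ((Nat.card K : ℕ) : ZMod p) = f) (ho : Odd f) {n : ℕ} (hw : ¬ p ∣ (f + n) / f) :
    ¬ p ∣ Nat.card ((CForm.spF K (f + n)).Om f) := by
  obtain ⟨W₀, hW₀, hC⟩ := Cfsg.Agent.H749.Two.spF_cmp K f n
  have hpq := not_dvd_card (p := p) K hpr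
  exact Om_ndvd_of hp2 hpr hf hw (val_spF K hp2 hpq hf ho (f + n)) (val_spF K hp2 hpq hf ho n)
    (by have := finite_iso (CForm.spF K (f + n)); exact Nat.card_pos.ne')
    (Cfsg.Agent.H749.Two.card_exact hC hW₀)

/-- **the index for `O` in odd dimension** -/
theorem odd_Om_ndvd {r : ℕ} [Fact r.Prime] [CharP K r] (hp2 : p ≠ 2) (hpr : p ≠ r)
    (hf : orderOf ((Nat.card K : ℕ) : ZMod p) = f) (ho : Odd f) (hK : (2 : K) ≠ 0) (hKo : Odd (Nat.card K)) {n : ℕ}
    (hw : ¬ p ∣ (f + n) / f) :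
    ¬ p ∣ Nat.card ((CForm.oddF K (f + n) hK).Om f) := by
  obtain ⟨W₀, hW₀, hC⟩ := Cfsg.Agent.H749.Two.oddF_cmp K hK f n
  have hpq := not_dvd_card (p := p) K hpr
  exact Om_ndvd_of hp2 hpr hf hw (val_oddF K hp2 hpq hf ho hK hKo (f + n)) (val_oddF K hp2 hpq hf ho hK hKo n)
    (by have := finite_iso (CForm.oddF K (f + n) hK); exact Nat.card_pos.ne')
    (Cfsg.Agent.H749.Two.card_exact hC hW₀)

/-- **the index for `O⁺`** -/
theorem plus_Om_ndvd {r : ℕ} [Fact r.Prime] [CharP K r] (hp2 : p ≠ 2) (hpr : p ≠ r)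
    (hf : orderOf ((Nat.card K : ℕ) : ZMod p) = f) (ho : Odd f) {n : ℕ} (hw : ¬ p ∣ (f + n) / f) :
    ¬ p ∣ Nat.card ((CForm.plusF K (f + n)).Om f) := by
  obtain ⟨W₀, hW₀, hC⟩ := Cfsg.Agent.H749.Two.plusF_cmp K f n
  have hpq := not_dvd_card (p := p) K hpr
  exact Om_ndvd_of hp2 hpr hf hw (val_plusF K hp2 hpq hf ho (f + n)) (val_plusF K hp2 hpq hf ho n)
    (by have := finite_iso (CForm.plusF K (f + n)); exact Nat.card_pos.ne')
    (Cfsg.Agent.H749.Two.card_exact hC hW₀)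

/-- **the index for `O⁻`** -/
theorem minus_Om_ndvd {r : ℕ} [Fact r.Prime] [CharP K r] (hp2 : p ≠ 2) (hpr : p ≠ r)
    (hf : orderOf ((Nat.card K : ℕ) : ZMod p) = f) (ho : Odd f) {a b : K}
    (hab : ∀ z₁ z₂ : K, z₁ ^ 2 + a * z₁ * z₂ + b * z₂ ^ 2 = 0 → z₁ = 0 ∧ z₂ = 0) {n : ℕ}
    (hw : ¬ p ∣ (f + n) / f) :
    ¬ p ∣ Nat.card ((CForm.minusF K (f + n) a b hab).Om f) := by
  obtain ⟨W₀, hW₀, hC⟩ := Cfsg.Agent.H749.Two.minusF_cmp K hab f n
  have hpq := not_dvd_card (p := p) K hpr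
  exact Om_ndvd_of hp2 hpr hf hw (val_minusF K hp2 hpq hf ho (f + n) a b hab) (val_minusF K hp2 hpq hf ho n a b hab)
    (by have := finite_iso (CForm.minusF K (f + n) a b hab); exact Nat.card_pos.ne')
    (Cfsg.Agent.H749.Two.card_exact hC hW₀)

end orders

end Cfsg.Agent.H674.HT
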