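import Cfsg.Agent.H139.HT.Lin
import Cfsg.Agent.H112.HT.Ind

/-!
# The cuspidal character of `GL_1` in the principal block (helper674)

`exists_rhoGL_one` : if `p` is odd and the order of `q` modulo `p` is `1`, then `θ ∘ det`, `θ` of order `p`, has all the
properties of `H139.HT.RhoGL`.
-/

set_option autoImplicit false

open scoped ComplexConjugate
open Cfsg

namespace Cfsg.Agent.H674.HT

open Module Cfsg.Agent.H53.HC Cfsg.Agent.H477.HC Cfsg.Agent.H139.HT

universe u

section

variable {C : Type u} [CommGroup C] [Finite C] [IsCyclic C] {p : ℕ} [hp : Fact p.Prime]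

omit [Finite C] in
/-- a linear character of order `p` of a cyclic group -/
theorem exists_hom (h : p ∣ Nat.card C) : ∃ θ : C →* ℂˣ, θ ^ p = 1 ∧ ∃ g : C, (∀ x, x ∈ Subgroup.zpowers g) ∧
    orderOf (θ g) = p := by
  obtain ⟨g, hg⟩ := IsCyclic.exists_generator (α := C)
  have h1 : orderOf g = Nat.card C := orderOf_eq_card_of_forall_mem_zpowers hg
  have hz := Complex.isPrimitiveRoot_exp p hp.out.ne_zero
  obtain ⟨z, hz'⟩ : ∃ z : ℂˣ, orderOf z = p := by
    refine ⟨(hz.isUnit hp.out.ne_zero).unit, ?_⟩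
    rw [← orderOf_units, IsUnit.unit_spec]
    exact hz.eq_orderOf.symm
  have h2 : orderOf z ∣ orderOf g := by rw [hz', h1]; exact h
  refine ⟨monoidHomOfForallMemZpowers hg h2, ?_, g, hg, ?_⟩
  · ext x
    obtain ⟨n, rfl⟩ := Subgroup.mem_zpowers_iff.1 (hg x)
    have h3 : (z ^ n) ^ p = 1 := by
      rw [← zpow_natCast, ← zpow_mul, mul_comm, zpow_mul, zpow_natCast, ← hz', pow_orderOf_eq_one, one_zpow]
    rw [MonoidHom.pow_apply, map_zpow, monoidHomOfForallMemZpowers_apply_gen, h3, MonoidHom.one_apply]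
  · rw [monoidHomOfForallMemZpowers_apply_gen, hz']

omit [IsCyclic C] in
/-- characters of order `p` of a cyclic group are invariant under automorphisms of `p`-power order -/
theorem hom_inv {θ : C →* ℂˣ} {g : C} (hg : ∀ x, x ∈ Subgroup.zpowers g) (hpg : orderOf (θ g) = p)
    (τ : C ≃* C) {k : ℕ} (hk : ∀ x, (τ : C → C)^[p ^ k] x = x) (x : C) : θ (τ x) = θ x := by
  obtain ⟨s, hs⟩ := (mem_powers_iff_mem_zpowers).2 (hg (τ g))
  have hs' : τ g = g ^ s := hs.symm
  have h1 : ∀ n : ℕ, (τ : C → C)^[n] g = g ^ (s ^ n) := by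
    intro n
    induction n with
    | zero => simp
    | succ n ih => rw [Function.iterate_succ_apply', ih, map_pow, hs', ← pow_mul, ← pow_succ']
  have h2 : g ^ (s ^ p ^ k) = g ^ 1 := by rw [← h1, hk, pow_one]
  have h3 : s ^ p ^ k ≡ 1 [MOD p] := by
    have h4 := pow_eq_pow_iff_modEq.1 h2
    refine h4.of_dvd ?_
    rw [← hpg]
    exact orderOf_map_dvd θ g
  have h4 : s ≡ 1 [MOD p] := by
    rw [← ZMod.natCast_eq_natCast_iff] at h3 ⊢
    rw [Nat.cast_pow, ZMod.pow_card_pow] at h3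
    exact h3
  have h5 : θ (τ g) = θ g := by
    rw [hs', map_pow]
    nth_rewrite 2 [← pow_one (θ g)]
    rw [pow_eq_pow_iff_modEq, hpg]
    exact h4
  obtain ⟨n, rfl⟩ := Subgroup.mem_zpowers_iff.1 (hg x)
  rw [map_zpow, map_zpow, h5, map_zpow]

end

section

variable (K : Type u) [Field K] [Finite K] {p : ℕ} [hp : Fact p.Prime] {M : Ideal AlgInt}

omit [Finite K] in
/-- a subspace of the line -/
theorem sub_one (D : Submodule K (Fin 1 → K)) : D = ⊥ ∨ D = ⊤ := by
  have : finrank K (Fin 1 → K) = 1 := by simp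
  have := isSimpleModule_iff_finrank_eq_one.2 this
  exact eq_bot_or_eq_top D

/-- **the cuspidal character of `GL_1`** -/
theorem exists_rhoGL_one (hp2 : p ≠ 2) (hM : IsPModular p M) (hf : orderOf ((Nat.card K : ℕ) : ZMod p) = 1) :
    ∃ c : IrrCharacter (GL (Fin 1) K), RhoGL p M K (RingHom.id K) 1 c := by
  classical
  have hq : 1 < Nat.card K := Finite.one_lt_card
  have h1 : p ∣ Nat.card Kˣ := by
    rw [Nat.card_units]
    rw [orderOf_eq_one_iff] at hf
    rw [← ZMod.natCast_eq_zero_iff, Nat.cast_sub hq.le, hf, Nat.cast_one, sub_self]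
  obtain ⟨θ, hθ, g, hg, hpg⟩ := exists_hom h1
  have hone : ∀ x : Kˣ, ∃ A : GL (Fin 1) K, Matrix.GeneralLinearGroup.det A = x := by
    intro x
    refine ⟨Matrix.GeneralLinearGroup.mkOfDetNeZero (Matrix.diagonal fun _ => (x : K)) (by simp), ?_⟩
    apply Units.ext
    simp [Matrix.GeneralLinearGroup.mkOfDetNeZero, Matrix.GeneralLinearGroup.det]
  refine ⟨Cfsg.Agent.H112.HT.linIrr (θ.comp Matrix.GeneralLinearGroup.det), ?_, ?_, ?_, ?_, ?_⟩
  · intro D h0 h1
    rcases sub_one K D with h | h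
    · exact absurd h h0
    · exact absurd h h1
  · intro h
    obtain ⟨A, hA⟩ := hone g
    have h2 := congrFun h A
    have h3 : Matrix.GeneralLinearGroup.det
        (((Matrix.GeneralLinearGroup.map (RingHom.id K)).comp (invT 1)) A) = (Matrix.GeneralLinearGroup.det A)⁻¹ := by
      have e : ((Matrix.GeneralLinearGroup.map (RingHom.id K)).comp (invT 1)) A = invT 1 A := by
        ext i j
        rfl
      rw [e, ← map_inv]
      apply Units.ext
      change (((A⁻¹ : GL (Fin 1) K) : Matrix (Fin 1) (Fin 1) K).transpose).det =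
        ((A⁻¹ : GL (Fin 1) K) : Matrix (Fin 1) (Fin 1) K).det
      rw [Matrix.det_transpose]
    have h4 : θ g⁻¹ = θ g := by
      apply Units.ext
      have h5 : ((θ (Matrix.GeneralLinearGroup.det
        (((Matrix.GeneralLinearGroup.map (RingHom.id K)).comp (invT 1)) A)) : ℂˣ) : ℂ) =
        ((θ (Matrix.GeneralLinearGroup.det A) : ℂˣ) : ℂ) := h2
      rw [h3, hA] at h5
      exact h5
    have h6 : θ g ^ 2 = 1 := by
      rw [pow_two]
      nth_rewrite 1 [← h4]
      rw [← map_mul, inv_mul_cancel, map_one]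
    have h7 := orderOf_dvd_of_pow_eq_one h6
    rw [hpg] at h7
    exact hp2 ((Nat.prime_dvd_prime_iff_eq hp.out Nat.prime_two).1 h7)
  · refine Cfsg.Agent.H112.HT.lin_mem hM _ ⟨1, ?_⟩
    rw [pow_one]
    ext A
    have h2 := congrArg (fun f : Kˣ →* ℂˣ => f (Matrix.GeneralLinearGroup.det A)) hθ
    simp only [MonoidHom.pow_apply, MonoidHom.one_apply] at h2
    rw [MonoidHom.pow_apply, MonoidHom.one_apply, MonoidHom.comp_apply, h2]
  · have h2 : charDegree ((Cfsg.Agent.H112.HT.linIrr (θ.comp Matrix.GeneralLinearGroup.det) :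
        IrrCharacter (GL (Fin 1) K)) : GL (Fin 1) K → ℂ) = 1 := by
      unfold charDegree
      rw [Cfsg.Agent.H112.HT.linIrr_apply, map_one]
      simp
    rw [h2]
    exact fun h => hp.out.one_lt.ne' (Nat.dvd_one.1 h)
  · rintro τ ⟨k, hk⟩ A
    rw [Cfsg.Agent.H112.HT.linIrr_apply, Cfsg.Agent.H112.HT.linIrr_apply, MonoidHom.comp_apply, MonoidHom.comp_apply]
    have h2 : Matrix.GeneralLinearGroup.det (Matrix.GeneralLinearGroup.map (τ : K →+* K) A) =
        (Units.mapEquiv (τ : K ≃* K)) (Matrix.GeneralLinearGroup.det A) := by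
      apply Units.ext
      change ((A : Matrix (Fin 1) (Fin 1) K).map τ).det = τ ((A : Matrix (Fin 1) (Fin 1) K).det)
      rw [RingEquiv.map_det]
      rfl
    rw [h2]
    congr 1
    refine hom_inv hg hpg (Units.mapEquiv (τ : K ≃* K)) (k := k) ?_ _
    intro x
    have h3 : ∀ n : ℕ, ((Units.mapEquiv (τ : K ≃* K) : Kˣ → Kˣ)^[n] x : Kˣ).val = (τ ^ n) (x : K) := by
      intro n
      induction n with
      | zero => rfl
      | succ n ih =>
        rw [Function.iterate_succ_apply', pow_succ']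
        change τ (((Units.mapEquiv (τ : K ≃* K) : Kˣ → Kˣ)^[n] x : Kˣ).val) = τ ((τ ^ n) (x : K))
        rw [ih]
    apply Units.ext
    rw [h3, hk]
    rfl

end

end Cfsg.Agent.H674.HT
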